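import Mathlib
import Cfsg.Agent.Transfer.ThompsonTransfer
import Cfsg.Agent.Transfer.PCompl

/-! Parity form of the transfer into a subgroup `H` with a subgroup `K` of index two. -/

namespace Cfsg.Agent.TT

open Subgroup MulAction

variable {G : Type*} [Group G]

theorem hom_units_eq_one [Finite G] (hres : Cfsg.pResidual 2 G = ⊤) (f : G →* ℤˣ) (t : G) :
    f t = 1 :=
  Transfer.pResidual_le_ker (p := 2) f (fun u => ⟨1, by simpa [pow_two] using Int.units_mul_self u⟩)
    (hres ▸ mem_top t)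

theorem conj_mem_iff_of_relIndex_two {H K : Subgroup G} (h : K.relIndex H = 2) {a x : G}
    (ha : a ∈ H) (hx : x ∈ H) : a⁻¹ * x * a ∈ K ↔ x ∈ K := by
  haveI := normal_of_index_eq_two (H := K.subgroupOf H) h
  have := (inferInstance : (K.subgroupOf H).Normal).mem_comm_iff (a := ⟨a, ha⟩⁻¹ * ⟨x, hx⟩)
    (b := ⟨a, ha⟩)
  rw [mul_inv_cancel_left] at this
  exact this

/-- The cosets `gH` with `g⁻¹ t g ∈ H \ K` are even in number. -/
theorem even_ncard_omega [Finite G] {H K : Subgroup G} (h : K.relIndex H = 2) {t : G}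
    (hG : ∀ f : G →* ℤˣ, f t = 1) (ht : t * t = 1) :
    Even {ω : G ⧸ H | ω.out⁻¹ * t * ω.out ∈ H ∧ ω.out⁻¹ * t * ω.out ∉ K}.ncard := by
  classical
  have : Fintype (Quotient (orbitRel (zpowers t) (G ⧸ H))) := Fintype.ofFinite _
  set Ω := {ω : G ⧸ H | ω.out⁻¹ * t * ω.out ∈ H ∧ ω.out⁻¹ * t * ω.out ∉ K}
  have hfix : ∀ ω : G ⧸ H, t • ω = ω ↔ ω.out⁻¹ * t * ω.out ∈ H := fun ω => by
    conv_lhs => rw [← ω.out_eq', Quotient.smul_mk, eq_comm, QuotientGroup.eq, smul_eq_mul,
      ← mul_assoc]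
  have key := hG (MonoidHom.transfer (Transfer.signHom h))
  rw [MonoidHom.transfer_eq_prod_quotient_orbitRel_zpowers_quot,
    Finset.prod_congr rfl (g := fun q => if q.out ∈ Ω then -1 else 1), Finset.prod_ite,
    Finset.prod_const, Finset.prod_const_one, mul_one,
    neg_one_pow_eq_one_iff_even (by decide)] at key
  · convert key using 1
    rw [← Set.ncard_coe_finset]
    refine (Set.ncard_congr (fun q _ => q.out) (fun q hq => (Finset.mem_filter.1 hq).2)
      (fun a b _ _ e => Quotient.out_injective e) fun ω hω => ?_).symm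
    have e : (Quotient.mk (orbitRel (zpowers t) (G ⧸ H)) ω).out = ω := by
      obtain ⟨⟨_, n, rfl⟩, e⟩ := Quotient.mk_out (s := orbitRel (zpowers t) (G ⧸ H)) ω
      rw [← e]
      exact (stabilizer G ω).zpow_mem ((hfix ω).2 hω.1) n
    exact ⟨Quotient.mk _ ω, Finset.mem_filter.2 ⟨Finset.mem_univ _, e.symm ▸ hω⟩, e⟩
  · intro q _
    by_cases h1 : t • q.out = q.out
    · have e : Function.minimalPeriod (t • ·) q.out = 1 :=
        Function.minimalPeriod_eq_one_iff_isFixedPt.2 h1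
      split_ifs with h2
      · exact Transfer.signHom_of_not_mem h (by simpa [e] using h2.2)
      · refine Transfer.signHom_of_mem h ?_
        by_contra h3
        exact h2 ⟨(hfix _).1 h1, by simpa [e] using h3⟩
    · rw [if_neg fun h2 => h1 ((hfix _).2 h2.1)]
      have e : Function.minimalPeriod (t • ·) q.out = 2 :=
        haveI : Fact (Nat.Prime 2) := ⟨Nat.prime_two⟩
        Function.minimalPeriod_eq_prime (by
          show t • t • q.out = q.out
          rw [smul_smul, ht, one_smul]) h1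
      exact Transfer.signHom_of_mem h (by simp [e, pow_two, ht])

/-- If `t ∈ H \ K` is an involution centralised by the 2-subgroup `T ≤ H`, there is a second
coset fixed by `T` at which `t` is outside `K`. -/
theorem exists_other_fixed [Finite G] {H K T : Subgroup G} (h : K.relIndex H = 2) {t : G}
    (hG : ∀ f : G →* ℤˣ, f t = 1) (ht : t * t = 1) (htH : t ∈ H) (htK : t ∉ K)
    (hT : IsPGroup 2 T) (hTH : T ≤ H) (hTt : ∀ x ∈ T, x * t = t * x) :
    ∃ g, g ∉ H ∧ (∀ x ∈ T, g⁻¹ * x * g ∈ H) ∧ g⁻¹ * t * g ∈ H ∧ g⁻¹ * t * g ∉ K := by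
  haveI : Fact (Nat.Prime 2) := ⟨Nat.prime_two⟩
  have hev := even_ncard_omega h hG ht
  set Ω := {ω : G ⧸ H | ω.out⁻¹ * t * ω.out ∈ H ∧ ω.out⁻¹ * t * ω.out ∉ K}
  have hΩ : ∀ g : G, (g : G ⧸ H) ∈ Ω ↔ g⁻¹ * t * g ∈ H ∧ g⁻¹ * t * g ∉ K := by
    intro g
    obtain ⟨a, ha⟩ := QuotientGroup.mk_out_eq_mul H g
    show _ ∧ _ ↔ _
    rw [ha, show (g * a)⁻¹ * t * (g * a) = (a : G)⁻¹ * (g⁻¹ * t * g) * a by group,
      mul_mem_cancel_right a.2, mul_mem_cancel_left (inv_mem a.2)]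
    exact and_congr_right fun h1 => not_congr (conj_mem_iff_of_relIndex_two h a.2 h1)
  let S : SubMulAction T (G ⧸ H) :=
    { carrier := Ω
      smul_mem' := by
        intro x ω hω
        obtain ⟨g, rfl⟩ := QuotientGroup.mk_surjective ω
        show (((x : G) * g : G) : G ⧸ H) ∈ Ω
        rw [hΩ] at hω ⊢
        rwa [show ((x : G) * g)⁻¹ * t * (x * g) = g⁻¹ * ((x : G)⁻¹ * (t * x)) * g by group,
          ← hTt x x.2, inv_mul_cancel_left] }
  have h1 : ((1 : G) : G ⧸ H) ∈ S := (hΩ 1).2 (by simpa using ⟨htH, htK⟩)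
  obtain ⟨⟨ω, hω⟩, hfix, hne⟩ := hT.exists_fixed_point_of_prime_dvd_card_of_fixed_point S
    hev.two_dvd (a := ⟨_, h1⟩) fun x => Subtype.ext (by
      show (((x : G) * 1 : G) : G ⧸ H) = (1 : G)
      rw [QuotientGroup.eq]
      simpa using hTH x.2)
  obtain ⟨g, rfl⟩ := QuotientGroup.mk_surjective ω
  refine ⟨g, fun hg => hne (Subtype.ext (QuotientGroup.eq.2 (by simpa using hg))),
    fun x hx => ?_, (hΩ g).1 hω⟩
  have : (((x : G) * g : G) : G ⧸ H) = g := congrArg Subtype.val (hfix ⟨x, hx⟩)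
  have := QuotientGroup.eq.1 this.symm
  rwa [← mul_assoc] at this

end Cfsg.Agent.TT
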