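import Mathlib
import Cfsg.Agent.TT.TransferParity
import Cfsg.Agent.TT.LXLayer
import Cfsg.Agent.PLocal.Amb

/-! Let `O₂(C(z))` be extraspecial and contain its centraliser, `K` of index two in `C(z)`, and
`G = O²(G)`.  We study a maximal 2-subgroup `P` centralising two conjugates `e`, `f` of `z` whose
subgroups `K_e`, `K_f` meet `P` differently. -/

namespace Cfsg.Agent.TT

open Subgroup

variable {G : Type*} [Group G]

/-- The transport of `K ≤ C(z)` to `C(d)`. -/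
def Kd (z : G) (K : Subgroup G) (d : G) : Subgroup G where
  carrier := {x | ∀ g, g * z * g⁻¹ = d → g⁻¹ * x * g ∈ K}
  one_mem' _ _ := by simp
  mul_mem' {a b} ha hb g hg := by
    have := mul_mem (ha g hg) (hb g hg)
    convert this using 1
    group
  inv_mem' {a} ha g hg := by
    have := inv_mem (ha g hg)
    convert this using 1
    group

theorem conj_mem_Kd {z : G} {K : Subgroup G} {d x : G} (c : G) :
    c * x * c⁻¹ ∈ Kd z K (c * d * c⁻¹) ↔ x ∈ Kd z K d := by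
  constructor
  · intro h g hg
    have := h (c * g) (by rw [← hg]; group)
    convert this using 1
    group
  · intro h g hg
    have := h (c⁻¹ * g) (by
      calc _ = c⁻¹ * (g * z * g⁻¹) * c := by group
        _ = d := by rw [hg]; group)
    convert this using 1
    group

theorem conj_mem_Kd_of_comm {z : G} {K : Subgroup G} {d x c : G} (hc : c * d = d * c) :
    c * x * c⁻¹ ∈ Kd z K d ↔ x ∈ Kd z K d := by
  conv_lhs => rw [← conj_eq_of_comm hc]
  exact conj_mem_Kd c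

/-- The basic setting. -/
structure KS (z : G) (K : Subgroup G) : Prop where
  lx : LX (O2C z) z
  le : K ≤ centralizer ({z} : Set G)
  idx : K.relIndex (centralizer ({z} : Set G)) = 2

/-- `e` is a conjugate of `z` centralising `P`. -/
def Cen (z : G) (P : Subgroup G) (e : G) : Prop := IsConj z e ∧ ∀ x ∈ P, x * e = e * x

/-- `K_e` and `K_f` meet `P` in the same subgroup. -/
def Rel (z : G) (K P : Subgroup G) (e f : G) : Prop := ∀ x ∈ P, x ∈ Kd z K e ↔ x ∈ Kd z K f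

theorem Rel.refl (z : G) (K P : Subgroup G) (e : G) : Rel z K P e e := fun _ _ => Iff.rfl

theorem Rel.symm {z : G} {K P : Subgroup G} {e f : G} (h : Rel z K P e f) : Rel z K P f e :=
  fun x hx => (h x hx).symm

theorem Rel.trans {z : G} {K P : Subgroup G} {e f d : G} (h : Rel z K P e f) (h' : Rel z K P f d) :
    Rel z K P e d := fun x hx => (h x hx).trans (h' x hx)

theorem Cen.conj {z : G} {P : Subgroup G} {e q : G} (h : Cen z P e)
    (hq : q ∈ normalizer (P : Set G)) : Cen z P (q * e * q⁻¹) :=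
  ⟨h.1.trans (isConj_iff.2 ⟨q, rfl⟩), fun x hx => by
    have := h.2 _ ((mem_normalizer_iff''.1 hq x).1 hx)
    calc _ = q * (q⁻¹ * x * q * e) * q⁻¹ := by group
      _ = _ := by rw [this]; group⟩

namespace KS

variable {z : G} {K : Subgroup G}

theorem lx_of (h : KS z K) {e : G} (he : IsConj z e) : LX (O2C e) e := by
  obtain ⟨g, rfl⟩ := isConj_iff.1 he
  exact h.lx.O2C_conj g

theorem mem_Kd_self (h : KS z K) {x : G} : x ∈ Kd z K z ↔ x ∈ K :=
  ⟨fun hx => by simpa using hx 1 (by simp), fun hx g hg =>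
    (conj_mem_iff_of_relIndex_two h.idx (mem_centralizer_singleton_iff.2 (comm_of_conj_eq hg))
      (h.le hx)).2 hx⟩

theorem mem_Kd (h : KS z K) (g x : G) : x ∈ Kd z K (g * z * g⁻¹) ↔ g⁻¹ * x * g ∈ K := by
  rw [← h.mem_Kd_self, ← conj_mem_Kd (d := z) g, show g * (g⁻¹ * x * g) * g⁻¹ = x by group]

theorem mul_mem_Kd (h : KS z K) {d x y : G} (hd : IsConj z d) (hx : x * d = d * x)
    (hy : y * d = d * y) : x * y ∈ Kd z K d ↔ (x ∈ Kd z K d ↔ y ∈ Kd z K d) := by
  obtain ⟨g, rfl⟩ := isConj_iff.1 hd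
  have hc : ∀ x : G, x * (g * z * g⁻¹) = g * z * g⁻¹ * x →
      g⁻¹ * x * g ∈ centralizer ({z} : Set G) := fun x hx => mem_centralizer_singleton_iff.2 (by
    calc _ = g⁻¹ * (x * (g * z * g⁻¹)) * g := by group
      _ = _ := by rw [hx]; group)
  rw [h.mem_Kd, h.mem_Kd, h.mem_Kd, show g⁻¹ * (x * y) * g = g⁻¹ * x * g * (g⁻¹ * y * g) by group]
  exact mul_mem_iff_of_index_two (H := K.subgroupOf (centralizer ({z} : Set G))) h.idx
    (a := ⟨_, hc x hx⟩) (b := ⟨_, hc y hy⟩)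

theorem sq_mem_Kd (h : KS z K) {d x : G} (hd : IsConj z d) (hx : x * d = d * x) :
    x * x ∈ Kd z K d := (h.mul_mem_Kd hd hx hx).2 Iff.rfl

theorem comm_mem_Kd (h : KS z K) {d x y u : G} (hd : IsConj z d) (hx : x * d = d * x)
    (hy : y * d = d * y) (e : x * y = y * x * u) : u ∈ Kd z K d := by
  have : u = (y * x)⁻¹ * (x * y) := by rw [e]; group
  rw [this, h.mul_mem_Kd hd (comm_inv_left (comm_mul_left hy hx)) (comm_mul_left hx hy),
    inv_mem_iff, h.mul_mem_Kd hd hy hx, h.mul_mem_Kd hd hx hy]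
  tauto

theorem self_mem_Kd (h : KS z K) {d : G} (hd : IsConj z d) : d ∈ Kd z K d := by
  have hl := h.lx_of hd
  obtain ⟨x, hx, y, hy, e⟩ := hl.toXS.exists_noncomm_pair
  exact h.comm_mem_Kd hd (hl.z_comm x hx) (hl.z_comm y hy) e

theorem exists_cen [Finite G] (h : KS z K) {T : Subgroup G} (hT : IsPGroup 2 T) :
    ∃ e, Cen z T e := by
  haveI : Fact (Nat.Prime 2) := ⟨Nat.prime_two⟩
  obtain ⟨S, hS⟩ := h.lx.toXS.isPGroup.exists_le_sylow
  obtain ⟨g, -, hg⟩ := (Fus.sylIn_top S).exists_conj hT le_top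
  refine ⟨g⁻¹ * z * g⁻¹⁻¹, isConj_iff.2 ⟨g⁻¹, rfl⟩, fun x hx => ?_⟩
  have := h.lx.comm_of_two_subgroup S.isPGroup' hS _ (hg x hx)
  calc _ = g⁻¹ * (g * x * g⁻¹ * z) * g := by group
    _ = _ := by rw [this]; group

end KS

/-- A maximal 2-subgroup on which two of the subgroups `K_e` differ. -/
structure MB (z : G) (K P : Subgroup G) : Prop extends KS z K where
  two : IsPGroup 2 P
  ex : ∃ e f, Cen z P e ∧ Cen z P f ∧ ¬ Rel z K P e f
  max : ∀ P' : Subgroup G, IsPGroup 2 P' → P < P' → ∀ e f, Cen z P' e → Cen z P' f →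
    Rel z K P' e f

theorem KS.exists_MB [Finite G] {z : G} {K : Subgroup G} (h : KS z K)
    (hres : Cfsg.pResidual 2 G = ⊤) : ∃ P, MB z K P := by
  haveI : Fact (Nat.Prime 2) := ⟨Nat.prime_two⟩
  have hex : ∃ P : Subgroup G, IsPGroup 2 P ∧
      ∃ e f, Cen z P e ∧ Cen z P f ∧ ¬ Rel z K P e f := by
    by_contra hcon
    push Not at hcon
    obtain ⟨S, hS⟩ := h.lx.toXS.isPGroup.exists_le_sylow
    have hSH : (S : Subgroup G) ≤ centralizer ({z} : Set G) := fun x hx =>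
      mem_centralizer_singleton_iff.2 (h.lx.comm_of_two_subgroup S.isPGroup' hS x hx)
    have hodd : Odd (centralizer ({z} : Set G)).index :=
      Odd.of_dvd_nat (Transfer.odd_index_sylow S) (index_dvd_of_le hSH)
    obtain ⟨u, huS, huK⟩ : ∃ u ∈ (S : Subgroup G), u ∉ K := by
      by_contra hc
      push Not at hc
      have := relIndex_mul_index h.le
      rw [h.idx] at this
      exact S.not_dvd_index ((Dvd.intro _ this).trans (index_dvd_of_le hc))
    have hu2 : IsPGroup 2 (zpowers u) := S.isPGroup'.to_le (zpowers_le.2 huS)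
    have key : ∀ x ∈ zpowers u, ∀ g : G, g * x * g⁻¹ ∈ centralizer ({z} : Set G) →
        (g * x * g⁻¹ ∈ K ↔ x ∈ K) := by
      intro x hx g hg
      have h1 : Cen z (zpowers x) z := ⟨IsConj.refl z, fun y hy => mem_centralizer_singleton_iff.1
        (hSH (zpowers_le.2 huS (zpowers_le.2 hx hy)))⟩
      have h2 : Cen z (zpowers x) (g⁻¹ * z * g⁻¹⁻¹) := ⟨isConj_iff.2 ⟨g⁻¹, rfl⟩, fun y hy => by
        refine mem_centralizer_singleton_iff.1 (zpowers_le.2 (mem_centralizer_singleton_iff.2 ?_) hy)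
        have := mem_centralizer_singleton_iff.1 hg
        calc _ = g⁻¹ * (g * x * g⁻¹ * z) * g := by group
          _ = _ := by rw [this]; group⟩
      have := hcon _ (hu2.to_le (zpowers_le.2 hx)) _ _ h2 h1 x (mem_zpowers x)
      rwa [h.mem_Kd, h.mem_Kd_self, inv_inv] at this
    obtain ⟨M, hM, hMi, huM⟩ := Transfer.thompson_transfer_gen hodd h.idx (u := u)
      (by obtain ⟨n, hn⟩ := IsPGroup.iff_card.1 hu2
          exact ⟨n, by rwa [Nat.card_zpowers] at hn⟩)
      (fun g hg => huK ((key u (mem_zpowers u) g (h.le hg)).1 hg)) (by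
        rintro g _ ⟨k, rfl⟩ hg
        rw [key _ (pow_mem (mem_zpowers u) _) g hg, pow_add, ← h.mem_Kd_self]
        exact h.sq_mem_Kd (IsConj.refl z) (mem_centralizer_singleton_iff.1 (hSH (pow_mem huS k))))
    exact huM (Transfer.pResidual_le_of_isPGroup_quotient (p := 2)
      (IsPGroup.of_card (n := 1) hMi) (hres ▸ mem_top u))
  obtain ⟨P, hP, hmax⟩ := Set.Finite.exists_maximal (s := {P : Subgroup G | IsPGroup 2 P ∧
    ∃ e f, Cen z P e ∧ Cen z P f ∧ ¬ Rel z K P e f}) (Set.toFinite _) hex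
  refine ⟨P, h, hP.1, hP.2, fun P' h1 h2 e f he hf => ?_⟩
  by_contra hne
  exact h2.not_ge (hmax ⟨h1, e, f, he, hf, hne⟩ h2.le)

namespace MB

variable {z : G} {K P : Subgroup G}

theorem exists_not_rel (h : MB z K P) (e : G) : ∃ f, Cen z P f ∧ ¬ Rel z K P e f := by
  obtain ⟨a, b, ha, hb, hab⟩ := h.ex
  by_cases h1 : Rel z K P e a
  · exact ⟨b, hb, fun h2 => hab (h1.symm.trans h2)⟩
  · exact ⟨a, ha, h1⟩

theorem eq_of_not_rel (h : MB z K P) {e f : G} (hef : ¬ Rel z K P e f) {P' : Subgroup G}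
    (h1 : IsPGroup 2 P') (h2 : P ≤ P') (he : Cen z P' e) (hf : Cen z P' f) : P' = P := by
  by_contra hne
  exact hef fun x hx => h.max P' h1 (lt_of_le_of_ne h2 (Ne.symm hne)) e f he hf x (h2 hx)

theorem exists_normalizer [Finite G] (h : MB z K P) {e : G} (he : Cen z P e) :
    ∃ q ∈ O2C e, q ∈ normalizer (P : Set G) ∧ q ∉ P := by
  haveI : Fact (Nat.Prime 2) := ⟨Nat.prime_two⟩
  have hl := h.toKS.lx_of he.1
  have hn : P ≤ normalizer (O2C e : Set G) := fun x hx => hl.mem_normalizer (he.2 x hx)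
  have hlt : P < P ⊔ O2C e := by
    refine left_lt_sup.2 fun hle => ?_
    obtain ⟨f, hf, hef⟩ := h.exists_not_rel e
    rcases hl.eq_of_comm (fun x hx => hf.2 x (hle hx)) with e' | e'
    · exact (h.toKS.lx_of hf.1).z_ne e'
    · exact hef (e' ▸ Rel.refl _ _ _ _)
  obtain ⟨n, ⟨hn1, hn2⟩, hn3⟩ := SetLike.exists_of_lt
    (PLocal.Amb.lt_inf_normalizer (h.two.to_sup_of_normal_right' hl.toXS.isPGroup hn) hlt)
  have hn1' : n ∈ ((P ⊔ O2C e : Subgroup G) : Set G) := hn1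
  rw [coe_mul_of_left_le_normalizer_right _ _ hn] at hn1'
  obtain ⟨p, hp, q, hq, rfl⟩ := hn1'
  exact ⟨q, hq, (mul_mem_cancel_left (le_normalizer hp)).1 hn2, fun e => hn3 (mul_mem hp e)⟩

theorem cen_sup {e q : G} (he : Cen z P e) (hq : q * e = e * q) : Cen z (P ⊔ zpowers q) e :=
  ⟨he.1, fun _ hx => mem_centralizer_singleton_iff.1 ((sup_le
    (fun y hy => mem_centralizer_singleton_iff.2 (he.2 y hy))
    (zpowers_le.2 (mem_centralizer_singleton_iff.2 hq)) : _ ≤ centralizer ({e} : Set G)) hx)⟩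

/-- A 2-element normalising `P`, outside `P`, centralising `e` and fixing the class of `f`. -/
theorem rel_of_fix [Finite G] (h : MB z K P) {e f q : G} (he : Cen z P e) (hf : Cen z P f)
    (hq2 : IsPGroup 2 (zpowers q)) (hqe : q * e = e * q) (hqn : q ∈ normalizer (P : Set G))
    (hqP : q ∉ P) (hr : ∀ x ∈ P, x ∈ Kd z K f ↔ q * x * q⁻¹ ∈ Kd z K f) : Rel z K P e f := by
  haveI : Fact (Nat.Prime 2) := ⟨Nat.prime_two⟩
  let N : Subgroup G :=
    { carrier := {n | n ∈ normalizer (P : Set G) ∧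
        ∀ x ∈ P, x ∈ Kd z K f ↔ n * x * n⁻¹ ∈ Kd z K f}
      one_mem' := ⟨one_mem _, by simp⟩
      mul_mem' := by
        rintro a b ⟨ha, ha'⟩ ⟨hb, hb'⟩
        refine ⟨mul_mem ha hb, fun x hx => ?_⟩
        rw [hb' x hx, ha' _ ((mem_normalizer_iff.1 hb x).1 hx)]
        simp only [mul_assoc, mul_inv_rev]
      inv_mem' := by
        rintro a ⟨ha, ha'⟩
        refine ⟨inv_mem ha, fun x hx => ?_⟩
        rw [ha' _ ((mem_normalizer_iff.1 (inv_mem ha) x).1 hx)]
        simp only [mul_assoc, inv_inv, mul_inv_cancel_left, mul_inv_cancel, mul_one] }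
  have hN : ∀ n ∈ normalizer (P : Set G), n * f = f * n → n ∈ N := fun n h1 h2 =>
    ⟨h1, fun x _ => (conj_mem_Kd_of_comm h2).symm⟩
  have hPN : P ≤ N := fun x hx => hN x (le_normalizer hx) (hf.2 x hx)
  obtain ⟨r, hr1, hr2, hr3⟩ := h.exists_normalizer hf
  have hrf := comm_of_mem_O2C hr1
  have hB := h.two.to_sup_of_normal_left' hq2 (zpowers_le.2 hqn)
  have hB' := h.two.to_sup_of_normal_left' ((O2C_isPGroup f).to_le (zpowers_le.2 hr1))
    (zpowers_le.2 hr2)
  obtain ⟨A, hA1, hA2, hA⟩ := Fus.exists_sylIn hB (H := N) (sup_le hPN (zpowers_le.2 ⟨hqn, hr⟩))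
  obtain ⟨c, hc, hc'⟩ := hA.exists_conj hB' (sup_le hPN (zpowers_le.2 (hN r hr2 hrf)))
  obtain ⟨d, hd⟩ := h.toKS.exists_cen (hA.isPGroup hA2)
  have h1 := h.max _ hB (left_lt_sup.2 fun e => hqP (e (mem_zpowers q))) e d (cen_sup he hqe)
    ⟨hd.1, fun x hx => hd.2 x (hA1 hx)⟩
  have h2 := h.max _ hB' (left_lt_sup.2 fun e => hr3 (e (mem_zpowers r))) (c⁻¹ * d * c⁻¹⁻¹) f
    ⟨hd.1.trans (isConj_iff.2 ⟨_, rfl⟩), fun x hx => by
      have := hd.2 _ (hc' x hx)
      calc _ = c⁻¹ * (c * x * c⁻¹ * d) * c := by group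
        _ = _ := by rw [this]; group⟩ (cen_sup hf hrf)
  intro x hx
  have hx' : c⁻¹ * x * c⁻¹⁻¹ ∈ P := (mem_normalizer_iff.1 (inv_mem hc.1) x).1 hx
  rw [h1 x (mem_sup_left hx), ← conj_mem_Kd c⁻¹, h2 _ (mem_sup_left hx'), ← (inv_mem hc).2 x hx]

theorem mem [Finite G] (h : MB z K P) {e : G} (he : Cen z P e) : e ∈ P := by
  by_contra hne
  obtain ⟨f, hf, hef⟩ := h.exists_not_rel e
  have hl := h.toKS.lx_of he.1
  exact hef (h.rel_of_fix he hf (hl.toXS.isPGroup.to_le (zpowers_le.2 hl.z_mem)) rfl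
    (centralizer_le_normalizer _ he.2) hne fun x hx => by rw [conj_eq_of_comm (he.2 x hx).symm])

theorem exists_comm_not_mem [Finite G] (h : MB z K P) {e f q : G} (he : Cen z P e)
    (hf : Cen z P f) (hef : ¬ Rel z K P e f) (hq : q ∈ O2C e) (hqn : q ∈ normalizer (P : Set G))
    (hqP : q ∉ P) : ∃ x ∈ P, x⁻¹ * (q * x * q⁻¹) ∉ Kd z K f := by
  by_contra hcon
  push Not at hcon
  exact hef (h.rel_of_fix he hf ((O2C_isPGroup e).to_le (zpowers_le.2 hq)) (comm_of_mem_O2C hq)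
    hqn hqP fun x hx => by
      conv_rhs => rw [← mul_inv_cancel_left x (q * x * q⁻¹), mul_mem_cancel_right (hcon x hx)])

theorem comm_mem (h : MB z K P) {e q x : G} (he : Cen z P e) (hq : q ∈ O2C e)
    (hqn : q ∈ normalizer (P : Set G)) (hx : x ∈ P) : x⁻¹ * (q * x * q⁻¹) ∈ P ⊓ O2C e :=
  mem_inf.2 ⟨mul_mem (inv_mem hx) ((mem_normalizer_iff.1 hqn x).1 hx), by
    have := mul_mem (conj_mem_O2C hq (comm_inv_left (he.2 x hx))) (inv_mem hq)
    simpa only [inv_inv, mul_assoc] using this⟩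

theorem exists_not_mem [Finite G] (h : MB z K P) {e f : G} (he : Cen z P e)
    (hf : Cen z P f) (hef : ¬ Rel z K P e f) : ∃ a ∈ P ⊓ O2C e, a ∉ Kd z K f := by
  obtain ⟨q, h1, h2, h3⟩ := h.exists_normalizer he
  obtain ⟨x, hx, h4⟩ := h.exists_comm_not_mem he hf hef h1 h2 h3
  exact ⟨_, h.comm_mem he h1 h2 hx, h4⟩

theorem mem_of_comm (h : MB z K P) {e f x : G} (he : Cen z P e)
    (hf : Cen z P f) (hef : ¬ Rel z K P e f) (hx : x ∈ O2C e) (hxf : x * f = f * x) : x ∈ P := by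
  have hn : P ≤ normalizer ((O2C e ⊓ centralizer ({f} : Set G) : Subgroup G) : Set G) :=
    Solv.le_normalizer_inf (fun y hy => (h.toKS.lx_of he.1).mem_normalizer (he.2 y hy))
      fun y hy => le_normalizer (mem_centralizer_singleton_iff.2 (hf.2 y hy))
  have hc : ∀ d, Cen z P d → O2C e ⊓ centralizer ({f} : Set G) ≤ centralizer ({d} : Set G) →
      Cen z (P ⊔ (O2C e ⊓ centralizer ({f} : Set G))) d := fun d hd hle =>
    ⟨hd.1, fun _ hy => mem_centralizer_singleton_iff.1 ((sup_le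
      (fun y hy => mem_centralizer_singleton_iff.2 (hd.2 y hy)) hle :
        _ ≤ centralizer ({d} : Set G)) hy)⟩
  rw [← h.eq_of_not_rel hef (h.two.to_sup_of_normal_right' ((O2C_isPGroup e).to_le inf_le_left) hn)
    le_sup_left (hc e he fun y hy => mem_centralizer_singleton_iff.2 (comm_of_mem_O2C hy.1))
    (hc f hf inf_le_right)]
  exact mem_sup_right ⟨hx, mem_centralizer_singleton_iff.2 hxf⟩

/-- An element of `E_e` moving `f` into the centraliser of `P` normalises `P`. -/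
theorem mem_normalizer_of [Finite G] (h : MB z K P) {e f q : G} (he : Cen z P e)
    (hf : Cen z P f) (hef : ¬ Rel z K P e f) (hq : q ∈ O2C e)
    (hc : ∀ x ∈ P, x * (q * f * q⁻¹) = q * f * q⁻¹ * x) : q ∈ normalizer (P : Set G) := by
  refine inv_mem_iff.1 (mem_normalizer_fintype fun x hx => ?_)
  have h1 : q⁻¹ * x * q * f = f * (q⁻¹ * x * q) := by
    calc _ = q⁻¹ * (x * (q * f * q⁻¹)) * q := by group
      _ = _ := by rw [hc x hx]; group
  have h2 := h.mem_of_comm he hf hef (x := q⁻¹ * x * q * x⁻¹) (by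
    have := mul_mem (inv_mem hq) (conj_mem_O2C hq (he.2 x hx))
    simpa only [mul_assoc] using this) (comm_mul_left h1 (comm_inv_left (hf.2 x hx)))
  simpa using mul_mem h2 hx

end MB

/-- The elements of `Q` centralising `{q ∈ Q | [d, q] ∈ ⟨z⟩}` are the commutators `[d, q]` modulo
`z`. -/
theorem XS.exists_comm_eqv [Finite G] {Q : Subgroup G} {z d : G} (h : XS Q z)
    (hd : d ∈ normalizer (Q : Set G)) {y : G} (hy : y ∈ Q)
    (hc : ∀ q ∈ Q, Eqv z (d * q * d⁻¹) q → q * y = y * q) :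
    ∃ q ∈ Q, Eqv z y (d * q * d⁻¹ * q⁻¹) := by
  have hn : ∀ q ∈ Q, d * q * d⁻¹ ∈ Q := fun q hq => (mem_normalizer_iff.1 hd q).1 hq
  have hk : ∀ q ∈ Q, d * q * d⁻¹ * q⁻¹ ∈ Q := fun q hq => mul_mem (hn q hq) (inv_mem hq)
  let A : Subgroup G :=
    { carrier := {y | ∃ q ∈ Q, Eqv z y (d * q * d⁻¹ * q⁻¹)}
      one_mem' := ⟨1, one_mem _, Or.inl (by simp)⟩
      mul_mem' := by
        rintro a b ⟨q, hq, ha⟩ ⟨r, hr, hb⟩
        refine ⟨q * r, mul_mem hq hr, ?_⟩
        have hbQ := hb.mem h.z_mem (hk r hr)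
        have e : d * (q * r) * d⁻¹ * (q * r)⁻¹ =
            (d * q * d⁻¹ * q⁻¹) * (q * (d * r * d⁻¹ * r⁻¹) * q⁻¹) := by group
        rw [e]
        exact (ha.mul_right (h.z_comm b hbQ)).trans h.z_sq (Eqv.mul_left _ (hb.trans h.z_sq
          (Eqv.symm h.z_sq (h.conj hq (hk r hr)))))
      inv_mem' := by
        rintro a ⟨q, hq, ha⟩
        exact ⟨q, hq, Eqv.trans h.z_sq (h.inv (ha.mem h.z_mem (hk q hq))) ha⟩ }
  refine h.mem_of_comm_centralizer (A := A) (fun a ⟨q, hq, ha⟩ => ha.mem h.z_mem (hk q hq))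
    ⟨1, one_mem _, Or.inr (by simp)⟩ hy fun q hq hA => hc q hq ?_
  have : d⁻¹ * q * d * q⁻¹ = 1 ∨ d⁻¹ * q * d * q⁻¹ = z := by
    have hq' : d⁻¹ * q * d ∈ Q := (mem_normalizer_iff''.1 hd q).1 hq
    refine h.cent _ (mul_mem hq' (inv_mem hq)) fun r hr => ?_
    have e1 := hA _ ⟨r, hr, Eqv.refl _ _⟩
    by_cases h1 : r * q = q * r
    · have h2 : d * r * d⁻¹ * q = q * (d * r * d⁻¹) := by simpa using comm_mul_left e1 h1
      refine comm_mul_left ?_ (comm_inv_left h1.symm)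
      calc _ = d⁻¹ * (q * (d * r * d⁻¹)) * d := by group
        _ = _ := by rw [← h2]; group
    · refine h.mul_comm_of_not_comm hr hq' (inv_mem hq) (fun h2 => h1 ?_)
        fun h2 => h1 (by simpa using (comm_inv_left h2).symm)
      have h3 : d * r * d⁻¹ * q = q * (d * r * d⁻¹) := by
        calc _ = d * (r * (d⁻¹ * q * d)) * d⁻¹ := by group
          _ = _ := by rw [← h2]; group
      have := comm_mul_left (comm_inv_left e1) h3
      rwa [show (d * r * d⁻¹ * r⁻¹)⁻¹ * (d * r * d⁻¹) = r by group] at this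
  have hdz := h.comm_of_normalizer hd
  rcases this with e | e
  · left
    rw [mul_inv_eq_one] at e
    conv_lhs => rw [← e]
    group
  · right
    rw [mul_inv_eq_iff_eq_mul] at e
    calc _ = d * (z * (z * q)) * d⁻¹ := by rw [← mul_assoc z, h.z_sq, one_mul]
      _ = _ := by rw [← e, ← mul_assoc, hdz, h.z_comm q hq]; group

end Cfsg.Agent.TT
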